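import Cfsg.Agent.Lib.ZJ.Singer2
import Cfsg.Agent.Lib.ZJ.Glaub

/-! Central subgroups normalized by the normalizer of `J(S)`: weak closure or a Singer cycle. -/

set_option autoImplicit false

namespace Cfsg.Agent.ZJF

open Cfsg Cfsg.FusionSystem Cfsg.Agent.Fus2

universe u

section

variable {Ω : Type*} [Group Ω] {S T R : Subgroup Ω} {F : FusionSystem S} {p : ℕ}

theorem img_inj {P X Y : Subgroup Ω} {f : Ω → Ω} (hf : M F P f) (hX : X ≤ P) (hY : Y ≤ P)
    (e : img X f = img Y f) : X = Y := by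
  obtain ⟨g, -, hi⟩ := hf.exists_gIso rfl
  rw [← hi.img_img hX, e, hi.img_img hY]

theorem le_normalizer_of_le_Zc (hT : T ≤ ZJ.Zc S) : S ≤ Subgroup.normalizer (T : Set Ω) :=
  (Subgroup.le_centralizer_iff.1 (hT.trans inf_le_right)).trans
    (Subgroup.centralizer_le_normalizer _)

theorem iff_img_eq {P : Subgroup Ω} {f : Ω → Ω} (hf : M F P f) (hT : T ≤ P) (e : img T f = T) :
    ∀ X ≤ P, X = T ↔ img X f = T := fun _ hX =>
  ⟨fun e' => e' ▸ e' ▸ e, fun e' => img_inj hf hX hT (e'.trans e.symm)⟩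

/-- The maps of `F` that respect the subgroup `T`. -/
def wcSystem (F : FusionSystem S) (hT : T ≤ ZJ.Zc S) : FusionSystem S :=
  ofFn S (fun P f => M F P f ∧ ∀ X ≤ P, X = T ↔ img X f = T)
    (fun h e => ⟨h.1.congr e, fun X hX => img_congr (fun x hx => e x (hX hx)) ▸ h.2 X hX⟩)
    (fun h => h.1.le) (fun h _ hx => h.1.mem hx) (fun _ h => h.1.inj)
    (fun hP hg => ⟨M_conj F hP hg, fun X hX => iff_img_eq (M_conj F le_rfl hg)
      (hT.trans inf_le_left) (img_conj_eq_of_mem_normalizer (le_normalizer_of_le_Zc hT hg)) X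
      (hX.trans hP)⟩)
    (fun _ _ hf hg h => ⟨hf.1.comp hg.1 h, fun X hX => by
      have h1 : img X _ ≤ _ := img_le_iff.2 fun x hx => h x (hX hx)
      rw [← img_comp (hf.1.homOn.mono hX) (hg.1.homOn.mono h1), ← hg.2 _ h1, ← hf.2 X hX]⟩)
    (fun _ hf => by
      obtain ⟨g, hg, hi⟩ := hf.1.exists_gIso rfl
      refine ⟨g, ⟨hg, fun Y hY => ?_⟩, hi.left⟩
      rw [hf.2 _ (hi.symm.img_le hY), hi.symm.img_img hY])

theorem M_wcSystem {hT : T ≤ ZJ.Zc S} {P : Subgroup Ω} {f : Ω → Ω} :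
    M (wcSystem F hT) P f ↔ M F P f ∧ ∀ X ≤ P, X = T ↔ img X f = T :=
  (M_iff_of_fn (R := fun f => M F P f ∧ ∀ X ≤ P, X = T ↔ img X f = T) (fun _ => Iff.rfl)
    fun _ _ h e => ⟨h.1.congr e, fun X hX => img_congr (fun x hx => e x (hX hx)) ▸ h.2 X hX⟩).trans
    ⟨fun h => h.2, fun h => ⟨h.1.homOn, h⟩⟩

theorem good_wc {hT : T ≤ ZJ.Zc S} {U : Subgroup Ω} (hTU : T ≤ U) {D : FusionSystem R} [Finite S]
    (hD : IsNK F U ⊤ D) (h : ∀ f, M D T f → img T f = T) : Good F (wcSystem F hT) U :=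
  fun _ f hf h1 h2 h3 => M_wcSystem.2 ⟨hf, iff_img_eq hf (hTU.trans h1)
    (h f ((IsNK.M_of hD hf h1 h2 h3).mono (hTU.trans h1)))⟩

/-- The reduction lemma over the subgroups containing `T`. -/
theorem master_ge [Finite S] [Fact p.Prime] (hS : IsPGroup p S) (hF : F.IsSaturated p)
    (hT : T ≤ ZJ.Zc S) (htop : ∀ f, M F S f → img T f = T)
    (ha : ∀ U, T ≤ U → F.IsFullyNormalized U → normalizerIn S U < S →
      (∀ X, X ≤ S → T ≤ X → normalizerIn S (normalizerIn S U) ≤ Subgroup.normalizer (X : Set Ω) →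
        Good F (wcSystem F hT) X) → Good F (wcSystem F hT) U)
    (hc : ∀ U, T ≤ U → U ≤ S → S ≤ Subgroup.normalizer (U : Set Ω) →
      (∀ Y, Y ≤ S → S ≤ Subgroup.normalizer (Y : Set Ω) → U < Y → Good F (wcSystem F hT) Y) →
      Good F (wcSystem F hT) U) : ∀ f, M F T f → img T f = T := by
  suffices H : ∀ P f, M F P f → M (wcSystem F hT) P f from fun f hf =>
    ((M_wcSystem.1 (H T f hf)).2 T le_rfl).1 rfl
  refine alperin_weak hS hF (fun P f => M (wcSystem F hT) P f) (fun _ _ _ _ h h' => h.mono h')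
    (fun _ _ _ h e => h.congr e) (fun _ _ _ _ _ _ h h' e => h.comp h' e) ?_ ?_
  · intro P f g hf hfE hg e
    obtain ⟨g', hg', e'⟩ := hfE.inv
    refine hg'.congr fun y hy => ?_
    obtain ⟨x, hx, rfl⟩ := hf.mem_img.1 hy
    rw [e x hx, e' x hx]
  intro R hR ih α hα
  have hα' := (mem_autGroup_iff hR.1).1 hα
  rcases hR.1.eq_or_lt with rfl | hlt
  · exact M_wcSystem.2 ⟨hα', iff_img_eq hα' (hT.trans inf_le_left) (htop _ hα')⟩
  by_cases hR0 : T ≤ R
  swap
  · exact M_wcSystem.2 ⟨hα', fun X hX => ⟨fun e => (hR0 (e ▸ hX)).elim, fun e =>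
      (hR0 (e ▸ img_le_iff.2 fun x hx => afn_mem α (hX hx))).elim⟩⟩
  let m : Subgroup Ω → ℕ := fun U =>
    Nat.card (normalizerIn S U) * (Nat.card S + 1) + Nat.card U
  have hcard : ∀ U, U ≤ S → Nat.card U ≤ Nat.card S := fun U hU => Fus.card_le_of_le' le_rfl hU
  have hm : ∀ U, U ≤ S → m U < (Nat.card S + 1) * (Nat.card S + 1) := fun U hU => by
    have h1 := hcard U hU
    have h2 := hcard _ (Fus.normalizerIn_le (S := S) U)
    simp only [m]; nlinarith
  have key : ∀ n, ∀ U, U ≤ S → T ≤ U → Nat.card R < Nat.card (normalizerIn S U) →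
      (Nat.card S + 1) * (Nat.card S + 1) - m U = n → Good F (wcSystem F hT) U := by
    intro n
    induction n using Nat.strong_induction_on with
    | _ n IH =>
    intro U hU hU0 hRU hn
    obtain ⟨φ, hφ, hU'⟩ := sat_exists_normalizer_map hS hF hU
    have hUN : U ≤ normalizerIn S U := Fus.le_normalizerIn hU
    have hc1 : Nat.card (img U φ) = Nat.card U := (hφ.mono hUN).card_img
    have hc2 : Nat.card (normalizerIn S U) ≤ Nat.card (normalizerIn S (img U φ)) :=
      hU'.2 U (Fus.isConj_symm (hφ.mono hUN).isConj)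
    have hφE := ih _ _ hφ hRU
    refine Good.of_conj hU hφ hφE ?_
    have hne : T ≤ img U φ :=
      ((M_wcSystem.1 hφE).2 T (hU0.trans hUN)).1 rfl ▸ img_mono φ hU0
    rcases (Fus.normalizerIn_le (S := S) (img U φ)).eq_or_lt with e | hlt
    · refine hc _ hne hU'.1 (e ▸ Fus.normalizerIn_le_normalizer _) fun Y hY hYn hUY => ?_
      have := finite_of_le hY
      have h0 := card_lt_of_lt hUY
      have h1 := hm Y hY
      have h2 := hcard _ (Fus.normalizerIn_le (S := S) U)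
      have h4 : normalizerIn S Y = S := inf_eq_left.2 hYn
      refine IH _ ?_ Y hY (hne.trans hUY.le) (by rw [h4]; omega) rfl
      have h3 : m U < m Y := by
        simp only [m, h4]
        nlinarith
      omega
    · refine ha _ hne hU' hlt fun X hX hX0 hn => ?_
      have h0 := card_lt_of_lt ((Fus.lt_inf_normalizer hS hlt).trans_le
        (le_inf (Fus.normalizerIn_le _) hn) : _ < normalizerIn S X)
      refine IH _ ?_ X hX hX0 (by omega) rfl
      have h1 := hm X hX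
      have h2 := hcard U hU
      have h3 : m U < m X := by
        simp only [m]
        have : Nat.card (normalizerIn S U) + 1 ≤ Nat.card (normalizerIn S X) := by omega
        nlinarith
      omega
  have hlt' : R < normalizerIn S R := Fus.lt_inf_normalizer hS hlt
  exact key _ R hR.1 hR0 (card_lt_of_lt hlt') rfl R _ hα' le_rfl Subgroup.le_normalizer
    fun x hx => afn_mem α hx

end

theorem img_eq_of_not_sing {p : ℕ} [Fact p.Prime] (hp : p ≠ 2) {Ω : Type u} [Group Ω]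
    {T : Subgroup Ω} (n : ℕ) : ∀ {S : Subgroup Ω} [Finite S] (F : FusionSystem S), Nat.card S = n →
      IsPGroup p S → F.IsSaturated p → T ≤ ZJ.Zc S →
      (∀ f, M F (ZJ.J S) f → (∀ x ∈ ZJ.J S, f x ∈ ZJ.J S) → img T f = T) →
      (∀ α ∈ F.autGroup T, ¬ ZJ.Sing α) → ∀ f, M F T f → img T f = T := by
  induction n using Nat.strong_induction_on with
  | _ n IH =>
  intro S _ F hn hS hF hT hJ hno
  have hTS : T ≤ S := hT.trans inf_le_left
  have hsub : ∀ {R : Subgroup Ω} {D : FusionSystem R}, T ≤ R → (∀ P f, M D P f → M F P f) →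
      ∀ α ∈ D.autGroup T, ¬ ZJ.Sing α := fun hR hD α hα =>
    hno α ((mem_autGroup_iff hTS).2 (hD _ _ ((mem_autGroup_iff hR).1 hα)))
  refine master_ge hS hF hT (fun f hf => hJ f (hf.mono (ZJ.J_le S)) fun x hx =>
    (jFun p).map_mem hS hf (fun _ hy => hf.mem hy) hx) (fun U hTU hU hlt h => ?_)
    fun U hTU hUS hUn h => ?_
  · obtain ⟨D, hD⟩ := exists_normSys F hU.1 rfl
    have hR := hTU.trans (Fus.le_normalizerIn hU.1)
    have hT' : T ≤ ZJ.Zc (normalizerIn S U) :=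
      fun x hx => mem_Zc.2 ⟨hR hx, fun s hs => (mem_Zc.1 (hT hx)).2 s hs.1⟩
    have := finite_of_le hlt.le
    have hTJ := hT'.trans (ZJ.Zc_le_J _)
    refine good_wc hTU hD (IH _ (hn ▸ card_lt_of_lt hlt) D rfl (Fus.isPGroup_of_le hS hlt.le)
      (IsNK.sat_top hS hF hD hU) hT' (fun f hf hf' => ?_) (hsub hR (IsNK.toM hD)))
    exact ((M_wcSystem.1 (h _ ((ZJ.J_le _).trans hlt.le) hTJ ((Fus.normalizerIn_le_normalizer _).trans
      (ZJ.normalizer_le_normalizer_J _)) _ f (IsNK.toM hD _ _ hf) le_rfl Subgroup.le_normalizer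
      hf')).2 T hTJ).1 rfl
  have hU : F.IsFullyNormalized U := Fus.isFullyNormalized_of_normal hUS hUn
  by_cases hc : centralizerIn S U ≤ U
  swap
  · exact good_of_frattini_bot hS hF hU (h _ (sup_le hU.1 (Fus.centralizerIn_le U))
      (le_normalizer_sup_centralizerIn hUn) (lt_sup_centralizerIn hc)) fun P g hg hUP _ e =>
      M_wcSystem.2 ⟨hg, iff_img_eq hg (hTU.trans hUP) (img_eq_self_of_fix fun x hx => e x (hTU hx))⟩
  obtain ⟨D, hD⟩ := exists_normSys F hU.1 (T := S) (inf_eq_left.2 hUn).symm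
  have hDn := IsNK.isNormal_top hD hU.1
  obtain ⟨G, _, ι, hG⟩ := Biset.exists_model hS (IsNK.sat_top hS hF hD hU) hDn hc
  have := hG.1
  have hE := emb_of_realized hG.2.1
  have hTJ := hT.trans (ZJ.Zc_le_J S)
  refine good_wc hTU hD fun f hf => ?_
  by_cases hn : (img T (fn ι)).Normal
  · obtain ⟨-, -, g, e⟩ := (Asch.M_iff_of_realized hG.2.1).1 hf
    exact hf.img_eq_self (hE.maps hf le_rfl e (by rw [Subgroup.normalizer_eq_top]; trivial))
  obtain ⟨P, hP⟩ := hG.2.2.1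
  obtain ⟨x, hx⟩ := ZJ.exists_sing hp (hP ▸ Tr.SylowIn.top P : Tr.SylowIn p ι.range ⊤)
    (img_le_iff.2 fun x hx => fn_comm_range (hTS hx) fun s hs =>
      mul_inv_eq_iff_eq_mul.2 ((mem_Zc.1 (hT hx)).2 s hs))
    ((img_mono _ hTU).trans (Asch.model_img_le_pCore hG hDn)) (fun g hg => by
      rw [← img_fn, ← img_J hE.inj le_rfl] at hg
      obtain ⟨k, hk, h1, e⟩ := hE.exists_norm (ZJ.J_le S) hg
      have h2 := hJ k (IsNK.toM hD _ _ hk) h1
      have := finite_of_le (le_top : img T (fn ι) ≤ ⊤)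
      refine Fus.mem_normalizer_of_conj_mem fun y hy => ?_
      obtain ⟨t, ht, rfl⟩ := (mem_img_fn hTS).1 hy
      rw [← e t (hTJ ht)]
      exact mem_img_of_mem _ (h2 ▸ mem_img_of_mem k ht)) hn
  obtain ⟨k, hk, h1, e⟩ := hE.exists_norm hTS x.2
  obtain ⟨α, hα, e'⟩ := hk.exists_aut' h1
  let ε := ((homOn_fn ι).mono hTS).equiv
    (fun a ha b hb => fn_inj hE.inj a (hTS ha) b (hTS hb)) rfl
  refine absurd (hx.congr ε.symm fun y => ?_) (hsub hTS (IsNK.toM hD) α hα)
  obtain ⟨t, rfl⟩ := ε.surjective y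
  rw [MulEquiv.symm_apply_apply, MulEquiv.symm_apply_eq]
  refine Subtype.ext ((e t t.2).symm.trans ?_)
  rw [← e' t t.2, afn_coe]
  rfl

theorem card_autGroup_coprime {p : ℕ} [Fact p.Prime] {Ω : Type u} [Group Ω] {S T : Subgroup Ω}
    [Finite S] {F : FusionSystem S} (hS : IsPGroup p S) (hF : F.IsSaturated p)
    (hT : T ≤ ZJ.Zc S) : (Nat.card (F.autGroup T)).Coprime p := by
  have h := (Fus.sat_sylow hS hF (Fus.isFullyNormalized_of_normal (hT.trans inf_le_left)
    (le_normalizer_of_le_Zc hT))).not_dvd_relIndex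
  have h1 : autInducedBy S T = ⊥ := eq_bot_iff.2 fun α hα => by
    obtain ⟨g, hg, e⟩ := Fus.mem_autInducedBy_iff.1 hα
    exact MulEquiv.ext fun x => Subtype.ext
      ((e x).trans (mul_inv_eq_iff_eq_mul.2 ((mem_Zc.1 (hT x.2)).2 g hg)))
  rw [h1, Subgroup.relIndex_bot_left] at h
  exact ((Nat.Prime.coprime_iff_not_dvd Fact.out).2 h).symm

end Cfsg.Agent.ZJF
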