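import Mathlib

/-! A finite additive group of units (and zero) closed under inversion is a field, in odd
characteristic. -/

set_option autoImplicit false

namespace Cfsg.Agent.Jordan

theorem comm_of_no_zero_div {R : Type*} [Ring R] [Finite R]
    (h : ∀ x y : R, x * y = 0 → x = 0 ∨ y = 0) (a b : R) : a * b = b * a := by
  cases subsingleton_or_nontrivial R
  · exact Subsingleton.elim _ _
  have : NoZeroDivisors R := ⟨fun {x y} => h x y⟩
  have : IsDomain R := NoZeroDivisors.to_isDomain R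
  exact (Finite.isDomain_to_isField R).mul_comm a b

theorem eq_zero_of_two_mul {R : Type*} [Ring R] {p : ℕ} (hp : Odd p) (h : (p : R) = 0) {x : R}
    (hx : x + x = 0) : x = 0 := by
  obtain ⟨k, rfl⟩ := hp
  have : ((2 * k + 1 : ℕ) : R) * x = k * (x + x) + x := by push_cast; noncomm_ring
  rwa [h, hx, zero_mul, mul_zero, zero_add, eq_comm] at this

/-- A finite ring with involution whose nonzero symmetric elements are units. -/
theorem osborn {R : Type*} [Ring R] [Finite R] {p : ℕ} (hp : p.Prime) (hp2 : p ≠ 2)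
    (hpR : (p : R) = 0) (τ : R →+ R) (τm : ∀ x y, τ (x * y) = τ y * τ x) (ττ : ∀ x, τ (τ x) = x)
    (hs : ∀ s, τ s = s → s = 0 ∨ IsUnit s) {a b : R} (ha : τ a = a) (hb : τ b = b)
    (gen : ∀ e, e * a = a * e → e * b = b * e → ∀ r, e * r = r * e) : a * b = b * a := by
  have h2 : ∀ {x : R}, x + x = 0 → x = 0 := eq_zero_of_two_mul (hp.odd_of_ne_two hp2) hpR
  have τ1 : τ 1 = 1 := by
    have := τm (τ 1) 1
    rwa [mul_one, ττ, mul_one, eq_comm] at this
  have h1 : ∀ y, ¬ IsUnit y → y * τ y = 0 := fun y hy =>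
    (hs _ (by rw [τm, ττ])).resolve_right fun h => hy (isUnit_of_mul_isUnit_left h)
  have h3 : ∀ y, ¬ IsUnit y → ∀ s, τ s = s → y * s * τ y = 0 := fun y hy s hs => by
    have k1 := h1 (y * (1 + s)) fun h => hy (isUnit_of_mul_isUnit_left h)
    have k2 := h1 (y * s) fun h => hy (isUnit_of_mul_isUnit_left h)
    rw [τm, map_add, τ1, hs] at k1
    rw [τm, hs] at k2
    refine h2 ?_
    rw [← k1, ← sub_eq_zero]
    calc _ = -(y * τ y) - y * s * (s * τ y) := by noncomm_ring
      _ = 0 := by rw [h1 y hy, k2]; simp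
  have h4 : ∀ y, IsUnit (τ y) → IsUnit y := fun y hy => by
    obtain ⟨z, hz⟩ := hy.exists_right_inv
    exact IsUnit.of_mul_eq_one_right (τ z) (by rw [← ττ y, ← τm, hz, τ1])
  have hc : τ (a * b - b * a) = -(a * b - b * a) := by rw [map_sub, τm, τm, ha, hb, neg_sub]
  rw [← sub_eq_zero]
  set c := a * b - b * a with hcd
  by_cases hsk : ∀ y, ¬ IsUnit y → τ y = -y
  · have h5 : ∀ y, ¬ IsUnit y → ∀ r, y * r = τ r * y := fun y hy r => by
      have := hsk (y * r) fun h => hy (isUnit_of_mul_isUnit_left h)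
      rw [τm, hsk y hy, mul_neg, neg_inj] at this
      exact this.symm
    have h6 : ∀ y, ¬ IsUnit y → ∀ r, y * r = r * y := fun y hy =>
      gen y (by rw [h5 y hy, ha]) (by rw [h5 y hy, hb])
    have h7 : ∀ y, ¬ IsUnit y → y * c = 0 := fun y hy => h2 (by
      nth_rewrite 1 [h5 y hy]
      rw [hc, h6 y hy, neg_mul, neg_add_cancel])
    by_cases hu : IsUnit c
    · rw [hcd, sub_eq_zero]
      refine comm_of_no_zero_div (fun x y hxy => ?_) a b
      by_cases hx : IsUnit x
      · exact Or.inr (hx.mul_right_eq_zero.1 hxy)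
      · exact Or.inl (hu.mul_left_eq_zero.1 (h7 x hx))
    rcases hs a ha with h0 | hau
    · simp [hcd, h0]
    have h8 : ∀ n : ℕ, a ^ (n + 1) * b = b * a ^ (n + 1) + ((n + 1 : ℕ) : R) * (c * a ^ n) := by
      intro n
      induction n with
      | zero => simp [hcd]
      | succ n ih =>
        calc a ^ (n + 1 + 1) * b = a ^ (n + 1) * b * a + a ^ (n + 1) * c := by
              rw [pow_succ, hcd]; noncomm_ring
          _ = _ := by rw [ih, ← h6 c hu, pow_succ a (n + 1), pow_succ a n]; push_cast; noncomm_ring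
    have τp : ∀ n : ℕ, τ (a ^ n) = a ^ n := fun n => by
      induction n with
      | zero => simpa using τ1
      | succ n ih => rw [pow_succ, τm, ih, ha, ← pow_succ', pow_succ]
    obtain ⟨u, rfl⟩ := hau
    have hn := orderOf_pos u
    have h9 : ¬ p ∣ orderOf u := by
      rintro ⟨k, hk⟩
      have := Fact.mk hp
      have k0 : k ≠ 0 := fun e => by rw [e, mul_zero] at hk; omega
      have k1 : ((u : R) ^ k - 1) ^ p = 0 := by
        cases subsingleton_or_nontrivial R
        · exact Subsingleton.elim _ _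
        have : CharP R p := (CharP.charP_iff_prime_eq_zero hp).2 hpR
        rw [sub_pow_char_of_commute _ (Commute.one_right _), one_pow, ← pow_mul, mul_comm, ← hk,
          ← Units.val_pow_eq_pow_val, pow_orderOf_eq_one, Units.val_one, sub_self]
      rcases hs ((u : R) ^ k - 1) (by rw [map_sub, τp, τ1]) with k2 | k2
      · have k3 : u ^ k = 1 := Units.ext (by simpa [sub_eq_zero] using k2)
        have := Nat.le_of_dvd (Nat.pos_of_ne_zero k0) (orderOf_dvd_of_pow_eq_one k3)
        have := hp.two_le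
        nlinarith [Nat.pos_of_ne_zero k0]
      · have k3 := k2.pow p
        rw [k1, isUnit_zero_iff] at k3
        exact hu (by rw [← mul_one c, ← k3, mul_zero, k3]; exact isUnit_one)
    have h10 := h8 (orderOf u - 1)
    rw [Nat.sub_add_cancel hn, ← Units.val_pow_eq_pow_val, pow_orderOf_eq_one, Units.val_one,
      one_mul, mul_one, left_eq_add, ← mul_assoc, ← Units.val_pow_eq_pow_val,
      Units.mul_left_eq_zero] at h10
    obtain ⟨x, y, e⟩ := Nat.isCoprime_iff_coprime.2 ((hp.coprime_iff_not_dvd).2 h9)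
    have e' := congrArg (fun z : ℤ => (z : R) * c) e
    simp only [Int.cast_add, Int.cast_mul, Int.cast_natCast, hpR, Int.cast_one, mul_zero, zero_add,
      one_mul, mul_assoc, h10] at e'
    exact e'.symm
  push Not at hsk
  obtain ⟨y, hy, hy'⟩ := hsk
  have hτy : ¬ IsUnit (τ y) := fun h => hy (h4 y h)
  obtain ⟨t, ht⟩ : IsUnit (y + τ y) := (hs _ (by rw [map_add, ττ, add_comm])).resolve_left
    fun h => hy' (eq_neg_of_add_eq_zero_right h)
  have k1 := h1 y hy
  have k2 := h1 _ hτy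
  rw [ττ] at k2
  have k3 : y * t = t * y := by rw [ht, mul_add, add_mul, k1, k2]
  have k4 : (↑t⁻¹ : R) * y = y * ↑t⁻¹ := by
    rw [Units.inv_mul_eq_iff_eq_mul, ← mul_assoc, ← k3, Units.mul_inv_cancel_right]
  have k5 : τ (↑t⁻¹ : R) = ↑t⁻¹ := by
    have := τm (↑t⁻¹ : R) t
    rw [Units.inv_mul, τ1, show τ (t : R) = t by rw [ht, map_add, ττ, add_comm]] at this
    exact (Units.inv_eq_of_mul_eq_one_right this.symm).symm
  set e := y * ↑t⁻¹ with he
  have he1 : ¬ IsUnit e := fun h => hy (isUnit_of_mul_isUnit_left h)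
  have he2 : τ e = 1 - e := by
    rw [he, τm, k5, eq_sub_iff_add_eq', ← he, ← k4, ← mul_add, ← ht, Units.inv_mul]
  have he3 : ∀ s, τ s = s → e * s = s * e := fun s hs => by
    have j1 := h3 e he1 s hs
    have j2 := h3 (τ e) (fun h => he1 (h4 e h)) s hs
    rw [ττ, he2] at j2
    rw [he2] at j1
    rw [← sub_eq_zero, ← sub_zero 0]
    nth_rewrite 1 [← j1, ← j2]
    noncomm_ring
  have he4 := gen e (he3 a ha) (he3 b hb)
  have he5 : IsIdempotentElem e := by
    have := h1 e he1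
    rw [he2, mul_sub, mul_one, sub_eq_zero] at this
    exact this.symm
  have he6 : ∀ r, e * r ∈ Subsemigroup.corner e := fun r =>
    (Subsemigroup.mem_corner_iff he5).2 ⟨by rw [← mul_assoc, he5.eq],
      by rw [← he4, ← mul_assoc, he5.eq]⟩
  have : Finite he5.Corner := Subtype.finite
  have he7 := congrArg Subtype.val (comm_of_no_zero_div (R := he5.Corner) (fun x z hxz => by
    have j1 := ((Subsemigroup.mem_corner_iff he5).1 x.2).2
    have j2 := ((Subsemigroup.mem_corner_iff he5).1 z.2).1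
    have j3 : τ x.1 * e = 0 := by
      rw [← j1, τm, he2, ← he4, ← mul_assoc, mul_sub, mul_one, he5.eq, sub_self, zero_mul]
    rcases hs (x.1 + τ x.1) (by rw [map_add, ττ, add_comm]) with j4 | j4
    · left
      refine Subtype.ext ?_
      have := congrArg (· * e) j4
      rwa [add_mul, j1, j3, add_zero, zero_mul] at this
    · right
      refine Subtype.ext (j4.mul_right_eq_zero.1 ?_)
      rw [add_mul, show x.1 * z.1 = 0 from congrArg Subtype.val hxz, ← j2, ← mul_assoc, j3]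
      simp) ⟨_, he6 a⟩ ⟨_, he6 b⟩)
  have he8 : c * e = 0 := by
    have j : e * a * (e * b) = e * b * (e * a) := he7
    have j' : ∀ x z, e * x * (e * z) = x * z * e := fun x z => by
      rw [he4 x, mul_assoc, ← mul_assoc e, he5.eq, he4, mul_assoc]
    rw [hcd, sub_mul, ← j', ← j', j, sub_self]
  have he9 := congrArg τ he8
  rw [τm, he2, hc, map_zero, mul_neg, neg_eq_zero, sub_mul, he4, he8, one_mul, sub_zero] at he9
  exact he9

section

variable {E : Type*} [Ring E] {𝒜 ℬ : AddSubgroup E}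

/-- Hua's identity. -/
theorem hua (hA : ∀ a ∈ 𝒜, a ≠ 0 → ∃ b ∈ ℬ, a * b = 1 ∧ b * a = 1)
    (hB : ∀ b ∈ ℬ, b ≠ 0 → ∃ a ∈ 𝒜, b * a = 1 ∧ a * b = 1) {a b : E} (ha : a ∈ 𝒜) (hb : b ∈ ℬ) :
    a * b * a ∈ 𝒜 := by
  by_cases ha0 : a = 0
  · simp [ha0]
  by_cases hb0 : b = 0
  · simp [hb0]
  obtain ⟨a', ha', h1, h2⟩ := hA a ha ha0
  obtain ⟨c, hc, h3, h4⟩ := hB b hb hb0
  by_cases hca : c - a = 0
  · rwa [← sub_eq_zero.1 hca, h4, one_mul]
  obtain ⟨d, hd, h5, h6⟩ := hA _ (sub_mem hc ha) hca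
  have h7 : (a - a * b * a) * (a' + d) = 1 := by
    calc _ = a * a' - a * b * (a * a') + a * (b * c) * d - a * b * a * d := by
          rw [h3]; noncomm_ring
      _ = 1 - a * b + a * b * ((c - a) * d) := by rw [h1]; noncomm_ring
      _ = 1 := by rw [h5]; noncomm_ring
  by_cases h0 : a' + d = 0
  · rw [h0, mul_zero] at h7
    rw [← mul_one (a * b * a), ← h7, mul_zero]
    exact zero_mem _
  obtain ⟨e, he, h8, -⟩ := hB _ (add_mem ha' hd) h0
  have : a - a * b * a = e := by rw [← mul_one (a - a * b * a), ← h8, ← mul_assoc, h7, one_mul]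
  have h9 := sub_mem ha he
  rwa [← this, sub_sub_cancel] at h9

theorem jordan_prod (h1 : (1 : E) ∈ 𝒜) (h : ∀ x ∈ 𝒜, ∀ y ∈ 𝒜, x * y * x ∈ 𝒜) {x y z : E}
    (hx : x ∈ 𝒜) (hy : y ∈ 𝒜) (hz : z ∈ 𝒜) :
    x * y * z + z * y * x ∈ 𝒜 ∧ x * z + z * x ∈ 𝒜 := by
  have key : ∀ y ∈ 𝒜, x * y * z + z * y * x ∈ 𝒜 := fun y hy => by
    have := sub_mem (sub_mem (h _ (add_mem hx hz) y hy) (h x hx y hy)) (h z hz y hy)
    convert this using 1; noncomm_ring
  exact ⟨key y hy, by simpa using key 1 h1⟩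

theorem pow_mem (h1 : (1 : E) ∈ 𝒜) (h : ∀ x ∈ 𝒜, ∀ y ∈ 𝒜, x * y * x ∈ 𝒜) {x : E} (hx : x ∈ 𝒜)
    (n : ℕ) : x ^ n ∈ 𝒜 := by
  induction n using Nat.twoStepInduction with
  | zero => simpa using h1
  | one => simpa using hx
  | more n ih _ => rw [pow_succ, pow_succ']; exact h x hx _ ih

/-- Cohn's theorem for two generators. -/
theorem cohn (h1 : (1 : E) ∈ 𝒜) (h : ∀ x ∈ 𝒜, ∀ y ∈ 𝒜, x * y * x ∈ 𝒜) {a b : E} (ha : a ∈ 𝒜)
    (hb : b ∈ 𝒜) (n : ℕ) : ∀ l : List E, l.length = n →
      (∀ x ∈ l, x ∈ Submonoid.powers a ∨ x ∈ Submonoid.powers b) →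
      l.prod + l.reverse.prod ∈ 𝒜 := by
  induction n using Nat.strong_induction_on with
  | _ n IH =>
  intro l hn hl
  let P : E → Prop := fun x => x ∈ Submonoid.powers a ∨ x ∈ Submonoid.powers b
  let R : E → E → Prop := fun x y => (x ∈ Submonoid.powers a ∧ y ∈ Submonoid.powers a) ∨
    (x ∈ Submonoid.powers b ∧ y ∈ Submonoid.powers b)
  have hP : ∀ x, P x → x ∈ 𝒜 := by
    rintro _ (⟨k, rfl⟩ | ⟨k, rfl⟩)
    exacts [pow_mem h1 h ha k, pow_mem h1 h hb k]
  have hR : ∀ x y, R x y → x * y = y * x ∧ P (x * y) := by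
    rintro _ _ (⟨⟨k, rfl⟩, ⟨m, rfl⟩⟩ | ⟨⟨k, rfl⟩, ⟨m, rfl⟩⟩)
    exacts [⟨pow_mul_comm _ _ _, Or.inl ⟨k + m, pow_add _ _ _⟩⟩,
      ⟨pow_mul_comm _ _ _, Or.inr ⟨k + m, pow_add _ _ _⟩⟩]
  rcases l with _ | ⟨x, l⟩
  · simpa using add_mem h1 h1
  rcases l.eq_nil_or_concat' with rfl | ⟨u, y, rfl⟩
  · simpa using add_mem (hP x (hl x (by simp))) (hP x (hl x (by simp)))
  have hx : P x := hl x (by simp)
  have hy : P y := hl y (by simp)
  have hu : ∀ z ∈ u, P z := fun z hz => hl z (by simp [hz])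
  simp only [List.length_cons, List.length_append, List.length_nil] at hn
  by_cases hxy : R y x
  · have k1 := IH _ (by simp; omega) (u ++ [y]) rfl (by
      simp only [List.mem_append, List.mem_singleton]
      rintro z (hz | rfl)
      exacts [hu z hz, hy])
    have k2 := IH _ (by simp; omega) (u ++ [y * x]) rfl (by
      simp only [List.mem_append, List.mem_singleton]
      rintro z (hz | rfl)
      exacts [hu z hz, (hR _ _ hxy).2])
    have k3 := sub_mem (jordan_prod h1 h (hP x hx) h1 k1).2 k2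
    convert k3 using 1
    simp only [List.prod_cons, List.prod_append, List.prod_nil, List.reverse_cons,
      List.reverse_append, List.reverse_nil, List.nil_append, mul_one]
    nth_rewrite 2 [(hR _ _ hxy).1]
    noncomm_ring
  rcases u with _ | ⟨z, u⟩
  · simpa using (jordan_prod h1 h (hP x hx) h1 (hP y hy)).2
  have hz : P z := hu z (by simp)
  have hu' : ∀ w ∈ u, P w := fun w hw => hu w (by simp [hw])
  simp only [List.length_cons] at hn
  by_cases hxz : R x z
  · have k1 := IH _ (by simp; omega) (x * z :: (u ++ [y])) rfl (by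
      simp only [List.mem_cons, List.mem_append, List.not_mem_nil, or_false]
      rintro w (rfl | hw | rfl)
      exacts [(hR _ _ hxz).2, hu' w hw, hy])
    convert k1 using 1
    simp only [List.prod_cons, List.prod_append, List.prod_nil, List.reverse_cons,
      List.reverse_append, List.reverse_nil, List.nil_append, mul_one]
    nth_rewrite 2 [(hR _ _ hxz).1]
    noncomm_ring
  have hzy : R z y := by
    simp only [R, P] at hxy hxz hx hy hz ⊢
    tauto
  have k1 := IH _ (by simp; omega) (z :: u) rfl hu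
  have k2 := IH _ (by simp; omega) (x :: (u.reverse ++ [z * y])) rfl (by
    simp only [List.mem_cons, List.mem_append, List.mem_reverse, List.not_mem_nil, or_false]
    rintro w (rfl | hw | rfl)
    exacts [hx, hu' w hw, (hR _ _ hzy).2])
  have k3 := sub_mem (jordan_prod h1 h (hP x hx) k1 (hP y hy)).1 k2
  convert k3 using 1
  simp only [List.prod_cons, List.prod_append, List.prod_nil, List.reverse_cons,
    List.reverse_append, List.reverse_nil, List.nil_append, mul_one, List.reverse_reverse]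
  nth_rewrite 2 [(hR _ _ hzy).1]
  noncomm_ring

open MulOpposite in
theorem jordan_comm [Finite E] {p : ℕ} (hp : p.Prime) (hp2 : p ≠ 2) (hpE : (p : E) = 0)
    (h1 : (1 : E) ∈ 𝒜) (h : ∀ x ∈ 𝒜, ∀ y ∈ 𝒜, x * y * x ∈ 𝒜)
    (hu : ∀ x ∈ 𝒜, x ≠ 0 → IsUnit x) {a b : E} (ha : a ∈ 𝒜) (hb : b ∈ 𝒜) : a * b = b * a := by
  let B : Subring (E × Eᵐᵒᵖ) := Subring.closure {(a, op a), (b, op b)}
  have haB : (a, op a) ∈ B := Subring.subset_closure (Or.inl rfl)
  have hbB : (b, op b) ∈ B := Subring.subset_closure (Or.inr rfl)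
  have hτ : ∀ x ∈ B, (unop x.2, op x.1) ∈ B := fun x hx => by
    induction hx using Subring.closure_induction with
    | mem x hx => rcases hx with rfl | rfl; exacts [haB, hbB]
    | zero => exact zero_mem B
    | one => exact one_mem B
    | add x y _ _ hx hy => exact add_mem hx hy
    | neg x _ hx => exact neg_mem hx
    | mul x y _ _ hx hy => exact mul_mem hy hx
  have hsum : ∀ x ∈ B, x.1 + unop x.2 ∈ 𝒜 := fun x hx => by
    have k1 : ∀ y ∈ Submonoid.closure {(a, op a), (b, op b)}, ∃ l : List E,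
        (∀ x ∈ l, x ∈ Submonoid.powers a ∨ x ∈ Submonoid.powers b) ∧
          y = (l.prod, op l.reverse.prod) := fun y hy => by
      induction hy using Submonoid.closure_induction with
      | mem x hx =>
        rcases hx with rfl | rfl
        exacts [⟨[a], by simp, by simp⟩, ⟨[b], by simp, by simp⟩]
      | one => exact ⟨[], by simp, rfl⟩
      | mul x y _ _ hx hy =>
        obtain ⟨l, k1, rfl⟩ := hx
        obtain ⟨m, k2, rfl⟩ := hy
        exact ⟨l ++ m, fun z hz => (List.mem_append.1 hz).elim (k1 z) (k2 z), by simp⟩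
    rw [Subring.mem_closure_iff] at hx
    induction hx using AddSubgroup.closure_induction with
    | mem y hy =>
      obtain ⟨l, k2, rfl⟩ := k1 y hy
      exact cohn h1 h ha hb _ l rfl k2
    | zero => simp
    | add x y _ _ hx hy => convert add_mem hx hy using 1; simp; abel
    | neg x _ hx => convert neg_mem hx using 1; simp; abel
  have : Finite Eᵐᵒᵖ := Finite.of_equiv _ opEquiv
  let τ : B →+ B := AddMonoidHom.mk' (fun x => ⟨_, hτ x x.2⟩) fun _ _ => rfl
  have := osborn (R := B) hp hp2 (Subtype.ext (Prod.ext hpE (congrArg op hpE))) τ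
    (fun _ _ => rfl) (fun _ => rfl) (fun s hs => ?_) (a := ⟨_, haB⟩) (b := ⟨_, hbB⟩) rfl rfl
    fun e k1 k2 r => ?_
  · exact congrArg (fun x : B => x.1.1) this
  · obtain ⟨⟨x, y⟩, hx⟩ := s
    obtain rfl : op x = y := congrArg (fun x : B => x.1.2) hs
    by_cases h0 : x = 0
    · subst h0; exact Or.inl rfl
    have k1 := hu _ (hsum _ hx) fun e => h0 (eq_zero_of_two_mul (hp.odd_of_ne_two hp2) hpE e)
    have k2 : IsUnit x := isUnit_of_mul_isUnit_right (x := 2) (by rwa [two_mul])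
    refine Or.inr (IsUnit.of_pow_eq_one (n := orderOf k2.unit) ?_ (orderOf_pos _).ne')
    have k3 : x ^ orderOf k2.unit = 1 := by
      have := congrArg Units.val (pow_orderOf_eq_one k2.unit)
      rwa [Units.val_pow_eq_pow_val, IsUnit.unit_spec] at this
    exact Subtype.ext (Prod.ext k3 (by simpa using congrArg op k3))
  · obtain ⟨r, hr⟩ := r
    refine Subtype.ext ?_
    change e.1 * r = r * e.1
    induction hr using Subring.closure_induction with
    | mem x hx =>
      rcases hx with rfl | rfl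
      exacts [congrArg Subtype.val k1, congrArg Subtype.val k2]
    | zero => simp
    | one => simp
    | add x y _ _ hx hy => rw [mul_add, add_mul, hx, hy]
    | neg x _ hx => rw [mul_neg, neg_mul, hx]
    | mul x y _ _ hx hy => rw [← mul_assoc, hx, mul_assoc, hy, mul_assoc]

/-- The multiplicative group is cyclic. -/
theorem exists_generator [Finite E] [Nontrivial E] {p : ℕ} (hp : p.Prime) (hp2 : p ≠ 2)
    (hpE : (p : E) = 0) (h1 : (1 : E) ∈ 𝒜) (h1' : (1 : E) ∈ ℬ)
    (hA : ∀ a ∈ 𝒜, a ≠ 0 → ∃ b ∈ ℬ, a * b = 1 ∧ b * a = 1)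
    (hB : ∀ b ∈ ℬ, b ≠ 0 → ∃ a ∈ 𝒜, b * a = 1 ∧ a * b = 1) :
    ∃ ζ ∈ 𝒜, ζ ≠ 0 ∧ ζ ≠ 1 ∧ ∀ a ∈ 𝒜, a ≠ 0 → ∃ n : ℕ, ζ ^ n = a := by
  have h : ∀ x ∈ 𝒜, ∀ y ∈ 𝒜, x * y * x ∈ 𝒜 := fun x hx y hy =>
    hua hA hB hx (by simpa using hua hB hA h1' hy)
  have hu : ∀ x ∈ 𝒜, x ≠ 0 → IsUnit x := fun x hx h0 =>
    let ⟨b, _, k, _⟩ := hA x hx h0
    IsUnit.of_mul_eq_one b k
  have hc := fun a b => jordan_comm hp hp2 hpE h1 h hu (a := a) (b := b)
  let K : Subring E :=
    { 𝒜 with
      one_mem' := h1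
      mul_mem' := fun {x y} hx hy => by
        obtain ⟨k, hk⟩ := hp.odd_of_ne_two hp2
        have k1 := nsmul_mem (jordan_prod h1 h hx h1 hy).2 (k + 1)
        rw [← hc x y hx hy, ← two_nsmul, ← mul_nsmul, show 2 * (k + 1) = p + 1 by omega,
          add_nsmul, one_nsmul, nsmul_eq_mul, hpE, zero_mul, zero_add] at k1
        exact k1 }
  let _ : CommRing K := { K.toRing with mul_comm := fun x y => Subtype.ext (hc _ _ x.2 y.2) }
  have : NoZeroDivisors K := ⟨fun {x y} e => by
    by_cases hx : x = 0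
    · exact Or.inl hx
    · exact Or.inr (Subtype.ext ((hu _ x.2 fun e => hx (Subtype.ext e)).mul_right_eq_zero.1
        (congrArg Subtype.val e)))⟩
  have : IsDomain K := NoZeroDivisors.to_isDomain K
  obtain ⟨g, hg⟩ := IsCyclic.exists_monoid_generator (α := Kˣ)
  have key : ∀ a ∈ 𝒜, a ≠ 0 → ∃ n : ℕ, (g : K).1 ^ n = a := fun a ha h0 => by
    obtain ⟨b, hb⟩ := (Finite.isField_of_domain K).mul_inv_cancel (a := ⟨a, ha⟩)
      fun e => h0 (congrArg Subtype.val e)
    obtain ⟨n, hn⟩ := hg (Units.mkOfMulEqOne _ _ hb)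
    exact ⟨n, by simpa using congrArg (fun u : Kˣ => (u : K).1) hn⟩
  refine ⟨_, (g : K).2, fun e => g.ne_zero (Subtype.ext e), fun e => ?_, key⟩
  obtain ⟨n, hn⟩ := key (-1) (neg_mem h1) (by simp)
  rw [e, one_pow, eq_neg_iff_add_eq_zero] at hn
  exact one_ne_zero (eq_zero_of_two_mul (hp.odd_of_ne_two hp2) hpE hn)

end

end Cfsg.Agent.Jordan
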