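import Cfsg.Agent.Lib.ZJ.Jordan
import Cfsg.Agent.Lib.ZJ.Weak2

/-! The cyclic torus in Glauberman's configuration. -/

set_option autoImplicit false

namespace Cfsg.Agent.ZJ

open Subgroup Cfsg Tr
open scoped commutatorElement IsMulCommutative

theorem end_mul_ap {Q : Type*} [AddCommGroup Q] (f g : AddMonoid.End Q) (x : Q) :
    (f * g) x = f (g x) := rfl

theorem end_one_ap {Q : Type*} [AddCommGroup Q] (x : Q) : (1 : AddMonoid.End Q) x = x := rfl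

theorem exists_singer {Q Γ : Type*} [AddCommGroup Q] [Finite Q] [Group Γ] {p k : ℕ} (hp : p.Prime)
    (hp2 : p ≠ 2) (hk : ∀ v : Q, p ^ k • v = 0) (ρ : Γ →* AddMonoid.End Q) {A B : Subgroup Γ}
    {X Y : AddSubgroup Q} (hXY : ∀ x ∈ X, x ∈ Y → x = 0)
    (aX : ∀ a ∈ A, ∀ x ∈ X, ρ a x = x) (aQ : ∀ a ∈ A, ∀ v, ρ a v - v ∈ X)
    (bY : ∀ b ∈ B, ∀ y ∈ Y, ρ b y = y) (bQ : ∀ b ∈ B, ∀ v, ρ b v - v ∈ Y)
    (sA : ∀ y ∈ Y, y ≠ 0 → ∀ x ∈ X, ∃ a ∈ A, ρ a y - y = x)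
    (sB : ∀ x ∈ X, x ≠ 0 → ∀ y ∈ Y, ∃ b ∈ B, ρ b x - x = y)
    (spread : ∀ a ∈ A, ∀ b ∈ B, ∀ y ∈ Y, ∀ x ∈ X, y ≠ 0 → ρ a y = ρ b x →
      (∀ y' ∈ Y, ∃ x' ∈ X, ρ a y' = ρ b x') ∧ ∀ x' ∈ X, ∃ y' ∈ Y, ρ a y' = ρ b x')
    {x₀ y₀ : Q} (hx₀ : x₀ ∈ X) (hx₀' : x₀ ≠ 0) (hy₀ : y₀ ∈ Y) (hy₀' : y₀ ≠ 0) :
    ∃ h : Γ, (∀ x ∈ X, ρ h x ∈ X) ∧ (∀ x ∈ X, ρ h x = x → x = 0) ∧
      ∀ x ∈ X, ∀ x' ∈ X, x ≠ 0 → x' ≠ 0 → ∃ n : ℕ, ρ (h ^ n) x = x' := by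
  let N : Γ → AddMonoid.End Q := fun g => ρ g - 1
  have hN' : ∀ g v, ρ g v - v = N g v := fun g v => rfl
  have hN : ∀ g v, ρ g v = v + N g v := fun g v => by rw [← hN', add_sub_cancel]
  simp only [hN'] at aQ bQ sA sB
  have hmul : ∀ {C : Subgroup Γ} {Z : AddSubgroup Q}, (∀ a ∈ C, ∀ x ∈ Z, ρ a x = x) →
      (∀ a ∈ C, ∀ v, N a v ∈ Z) → (∀ a ∈ C, ∀ a' ∈ C, ∀ v, N (a * a') v = N a v + N a' v) ∧
        ∀ a ∈ C, ∀ v, N a⁻¹ v = -N a v := fun {C Z} h1 h2 => by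
    have h3 : ∀ a ∈ C, ∀ a' ∈ C, ∀ v, N (a * a') v = N a v + N a' v := fun a ha a' ha' v => by
      rw [← hN', map_mul, end_mul_ap, hN a' v, map_add, h1 a ha _ (h2 a' ha' v), hN a v]
      abel
    refine ⟨h3, fun a ha v => eq_neg_of_add_eq_zero_left ?_⟩
    rw [← h3 _ (inv_mem ha) _ ha, inv_mul_cancel, ← hN', map_one, end_one_ap, sub_self]
  obtain ⟨mA, iA⟩ := hmul aX aQ
  obtain ⟨mB, iB⟩ := hmul bY bQ
  let I : Γ → Γ → Prop := fun a b => (∀ y ∈ Y, N b (N a y) = y) ∧ ∀ x ∈ X, N a (N b x) = x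
  have pair : ∀ a ∈ A, ∀ b ∈ B, ∀ y ∈ Y, y ≠ 0 → N b (N a y) = y → I a b := by
    intro a ha b hb y hy h0 e
    have key : ∀ y' ∈ Y, ∀ x' ∈ X, ρ a y' = ρ b x' → N a y' = x' ∧ N b x' = y' := by
      intro y' hy' x' hx' e'
      rw [hN, hN] at e'
      have h1 : N a y' - x' = N b x' - y' := by rw [sub_eq_sub_iff_add_eq_add, add_comm, e', add_comm]
      have h2 := hXY _ (sub_mem (aQ a ha y') hx') (h1 ▸ sub_mem (bQ b hb x') hy')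
      exact ⟨sub_eq_zero.1 h2, sub_eq_zero.1 (h1 ▸ h2)⟩
    obtain ⟨h1, h2⟩ := spread a ha b hb y hy _ (aQ a ha y) h0 (by rw [hN, hN, e, add_comm])
    refine ⟨fun y' hy' => ?_, fun x' hx' => ?_⟩
    · obtain ⟨x', hx', e'⟩ := h1 y' hy'
      rw [(key y' hy' x' hx' e').1, (key y' hy' x' hx' e').2]
    · obtain ⟨y', hy', e'⟩ := h2 x' hx'
      rw [(key y' hy' x' hx' e').2, (key y' hy' x' hx' e').1]
  have invA : ∀ a ∈ A, ∀ y ∈ Y, N a y ≠ 0 → ∃ b ∈ B, I a b := fun a ha y hy h0 => by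
    obtain ⟨b, hb, e⟩ := sB _ (aQ a ha y) h0 y hy
    exact ⟨b, hb, pair a ha b hb y hy (fun e => h0 (by rw [e, map_zero])) e⟩
  have invB : ∀ b ∈ B, ∀ x ∈ X, N b x ≠ 0 → ∃ a ∈ A, I a b := fun b hb x hx h0 => by
    obtain ⟨a, ha, e⟩ := sA _ (bQ b hb x) h0 x hx
    exact ⟨a, ha, pair a ha b hb _ (bQ b hb x) h0 (by rw [e])⟩
  obtain ⟨a₀, ha₀, e₀⟩ := sA y₀ hy₀ hy₀' x₀ hx₀
  obtain ⟨b₀, hb₀, h₀⟩ := invA a₀ ha₀ y₀ hy₀ (e₀ ▸ hx₀')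
  have hφ : ∀ a ∈ A, ∀ b, ∃ f : AddMonoid.End X, ∀ x : X, (f x : Q) = N a (N b x) :=
    fun a ha b => ⟨AddMonoidHom.codRestrict (((N a * N b : AddMonoid.End Q) : Q →+ Q).comp X.subtype)
      X fun x => aQ a ha _, fun _ => rfl⟩
  let 𝒜 : AddSubgroup (AddMonoid.End X) :=
    { carrier := {f | ∃ a ∈ A, ∀ x : X, (f x : Q) = N a (N b₀ x)}
      zero_mem' := ⟨1, one_mem _, fun x => by simp [N]⟩
      add_mem' := by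
        rintro f g ⟨a, ha, e⟩ ⟨a', ha', e'⟩
        exact ⟨a * a', mul_mem ha ha', fun x => by rw [mA a ha a' ha', ← e, ← e']; rfl⟩
      neg_mem' := by
        rintro f ⟨a, ha, e⟩
        exact ⟨a⁻¹, inv_mem ha, fun x => by rw [iA a ha, ← e]; rfl⟩ }
  let ℬ : AddSubgroup (AddMonoid.End X) :=
    { carrier := {f | ∃ b ∈ B, ∀ x : X, (f x : Q) = N a₀ (N b x)}
      zero_mem' := ⟨1, one_mem _, fun x => by simp [N]⟩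
      add_mem' := by
        rintro f g ⟨a, ha, e⟩ ⟨a', ha', e'⟩
        exact ⟨a * a', mul_mem ha ha', fun x => by rw [mB a ha a' ha', map_add, ← e, ← e']; rfl⟩
      neg_mem' := by
        rintro f ⟨a, ha, e⟩
        exact ⟨a⁻¹, inv_mem ha, fun x => by rw [iB a ha, map_neg, ← e]; rfl⟩ }
  have hI : ∀ a ∈ A, ∀ b ∈ B, I a b → ∀ f g : AddMonoid.End X, (∀ x : X, (f x : Q) = N a (N b₀ x)) →
      (∀ x : X, (g x : Q) = N a₀ (N b x)) → f * g = 1 ∧ g * f = 1 := fun a ha b hb h f g ef eg =>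
    ⟨AddMonoidHom.ext fun x => Subtype.ext (by
      change (f (g x) : Q) = x
      rw [ef, eg, h₀.1 _ (bQ b hb _), h.2 _ x.2]),
    AddMonoidHom.ext fun x => Subtype.ext (by
      change (g (f x) : Q) = x
      rw [eg, ef, h.1 _ (bQ b₀ hb₀ _), h₀.2 _ x.2])⟩
  have hne : ∀ f : AddMonoid.End X, f ≠ 0 → ∃ x : X, (f x : Q) ≠ 0 := fun f hf => by
    by_contra! h
    exact hf (AddMonoidHom.ext fun x => Subtype.ext (h x))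
  have hA : ∀ f ∈ 𝒜, f ≠ 0 → ∃ g ∈ ℬ, f * g = 1 ∧ g * f = 1 := by
    rintro f ⟨a, ha, e⟩ h0
    obtain ⟨x, hx⟩ := hne f h0
    obtain ⟨b, hb, h⟩ := invA a ha _ (bQ b₀ hb₀ x) (e x ▸ hx)
    obtain ⟨g, eg⟩ := hφ a₀ ha₀ b
    exact ⟨g, ⟨b, hb, eg⟩, hI a ha b hb h f g e eg⟩
  have hB : ∀ g ∈ ℬ, g ≠ 0 → ∃ f ∈ 𝒜, g * f = 1 ∧ f * g = 1 := by
    rintro g ⟨b, hb, e⟩ h0
    obtain ⟨x, hx⟩ := hne g h0
    obtain ⟨a, ha, h⟩ := invB b hb x x.2 fun h => hx (by rw [e, h, map_zero])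
    obtain ⟨f, ef⟩ := hφ a ha b₀
    exact ⟨f, ⟨a, ha, ef⟩, (hI a ha b hb h f g ef e).symm⟩
  have h1 : 1 ∈ 𝒜 := ⟨a₀, ha₀, fun x => (h₀.2 _ x.2).symm⟩
  have h1' : 1 ∈ ℬ := ⟨b₀, hb₀, fun x => (h₀.2 _ x.2).symm⟩
  have hinj : ∀ f ∈ 𝒜, f ≠ 0 → ∀ x, f x = 0 → x = 0 := fun f hf h0 x e => by
    obtain ⟨g, -, -, h⟩ := hA f hf h0
    rw [← end_one_ap x, ← h, end_mul_ap, e, map_zero]
  have : Nontrivial (AddMonoid.End X) := ⟨1, 0, fun e => hx₀' (congrArg Subtype.val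
    (DFunLike.congr_fun e (⟨x₀, hx₀⟩ : X)))⟩
  have : Finite (AddMonoid.End X) := DFunLike.finite _
  have hpE : (p : AddMonoid.End X) = 0 := by
    by_contra h
    obtain ⟨g, -, h2, -⟩ := hA p (by simpa using nsmul_mem h1 p) h
    have h3 := (IsUnit.of_mul_eq_one g h2).pow k
    rw [← Nat.cast_pow, show ((p ^ k : ℕ) : AddMonoid.End X) = 0 from
      AddMonoidHom.ext fun x => Subtype.ext (hk x)] at h3
    exact not_isUnit_zero h3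
  obtain ⟨ζ, hζ, h2, h3, h4⟩ := Jordan.exists_generator hp hp2 hpE h1 h1' hA hB
  obtain ⟨a, ha, e⟩ := id hζ
  obtain ⟨x, hx⟩ := hne ζ h2
  obtain ⟨b, hb, h⟩ := invA a ha _ (bQ b₀ hb₀ x) (e x ▸ hx)
  have h5 : ∀ x : X, ρ (a⁻¹ * b * a⁻¹ * (a₀ * b₀⁻¹ * a₀)) x = ζ x := fun x => by
    have k1 : ρ a₀ (ρ b₀⁻¹ x) = -N b₀ x := by
      rw [hN b₀⁻¹, iB b₀ hb₀, map_add, aX a₀ ha₀ _ x.2, map_neg, hN a₀, h₀.2 _ x.2]; abel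
    have k2 : ρ b (ρ a⁻¹ (N b₀ x)) = -N a (N b₀ x) := by
      rw [hN a⁻¹, iA a ha, map_add, bY b hb _ (bQ b₀ hb₀ x), map_neg, hN b, h.1 _ (bQ b₀ hb₀ x)]; abel
    simp only [map_mul, end_mul_ap]
    rw [aX a₀ ha₀ _ x.2, k1, map_neg, map_neg, k2, neg_neg, aX _ (inv_mem ha) _ (aQ a ha _), e]
  refine ⟨_, fun x hx => h5 ⟨x, hx⟩ ▸ (ζ ⟨x, hx⟩).2, fun x hx ex => congrArg Subtype.val
    (hinj _ (sub_mem hζ h1) (sub_ne_zero.2 h3) ⟨x, hx⟩ (Subtype.ext ?_)), fun x hx x' hx' k k' => ?_⟩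
  · rw [h5 ⟨x, hx⟩] at ex
    exact sub_eq_zero.2 ex
  · obtain ⟨a', ha', e'⟩ := sA _ (bQ b₀ hb₀ x) (fun e => k (by rw [← h₀.2 x hx, e, map_zero])) x' hx'
    obtain ⟨f, ef⟩ := hφ a' ha' b₀
    obtain ⟨n, rfl⟩ := h4 f ⟨a', ha', ef⟩ fun e => k' (by rw [← e', ← ef ⟨x, hx⟩, e]; rfl)
    refine ⟨n, ?_⟩
    rw [← e', ← ef ⟨x, hx⟩]
    change ρ _ (⟨x, hx⟩ : X) = _
    generalize (⟨x, hx⟩ : X) = y
    clear ef
    induction n with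
    | zero => simp
    | succ n ih => rw [pow_succ', map_mul, end_mul_ap, ih, h5, pow_succ']; rfl

end Cfsg.Agent.ZJ
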