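import Cfsg.Agent.Lib.ZJ.Singer

/-! The local form of Glauberman's theorem on central subgroups that are not weakly closed. -/

set_option autoImplicit false

namespace Cfsg.Agent.ZJ

open Subgroup Cfsg Tr
open scoped commutatorElement IsMulCommutative

universe u

/-- A nontrivial automorphism whose powers are transitive on the non-fixed elements modulo the
fixed elements. -/
def Sing {T : Type*} [Group T] (α : MulAut T) : Prop :=
  α ≠ 1 ∧ ∀ a b : T, α a ≠ a → α b ≠ b → ∃ n : ℕ, α ((α ^ n) a * b⁻¹) = (α ^ n) a * b⁻¹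

theorem Sing.congr {T T' : Type*} [Group T] [Group T'] {α : MulAut T} {β : MulAut T'}
    (e : T ≃* T') (h : ∀ x, e (α x) = β (e x)) (hα : Sing α) : Sing β := by
  have hn : ∀ (n : ℕ) x, e ((α ^ n) x) = (β ^ n) (e x) := fun n => by
    induction n with
    | zero => simp
    | succ n ih => intro x; rw [pow_succ', pow_succ', MulAut.mul_apply, MulAut.mul_apply, h, ih]
  refine ⟨fun e1 => hα.1 (MulEquiv.ext fun x => e.injective (by rw [h, e1]; rfl)), fun a b ha hb => ?_⟩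
  obtain ⟨a, rfl⟩ := e.surjective a
  obtain ⟨b, rfl⟩ := e.surjective b
  obtain ⟨n, h1⟩ := hα.2 a b (fun e1 => ha (by rw [← h, e1])) fun e1 => hb (by rw [← h, e1])
  exact ⟨n, by rw [← hn, ← map_inv, ← map_mul, ← h, h1]⟩

theorem exists_mod {G : Type u} [Group G] [Finite G] {V L D : Subgroup G}
    (hV : V ≤ centralizer (V : Set G)) (hL : L ≤ normalizer (V : Set G))
    (hLD : L ≤ normalizer (D : Set G)) :
    ∃ (Q : Type u) (_ : AddCommGroup Q) (_ : Finite Q) (π : G → Q) (ρ : L →* AddMonoid.End Q),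
      (∀ q, ∃ v ∈ V, π v = q) ∧ (∀ a ∈ V, ∀ b ∈ V, π (a * b) = π a + π b) ∧
      (∀ a ∈ V, ∀ b ∈ V, π a = π b ↔ a⁻¹ * b ∈ D) ∧
      ∀ l : L, ∀ v ∈ V, ρ l (π v) = π (l * v * (l : G)⁻¹) := by
  classical
  have : IsMulCommutative V := isMulCommutative_iff.2 fun a ha b hb => hV hb a ha
  let f : L → V →* V := fun l => (normalizerMonoidHom V ⟨l, hL l.2⟩).toMonoidHom
  have hf : ∀ l, D.subgroupOf V ≤ (D.subgroupOf V).comap (f l) := fun l x hx =>
    conj_mem_of_mem_normalizer (hLD l.2) hx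
  refine ⟨Additive (V ⧸ D.subgroupOf V), inferInstance, inferInstance,
    fun g => if h : g ∈ V then Additive.ofMul (QuotientGroup.mk ⟨g, h⟩) else 0,
    { toFun := fun l => MonoidHom.toAdditive (QuotientGroup.map _ _ (f l) (hf l))
      map_one' := AddMonoidHom.ext fun v => ?_
      map_mul' := fun a b => AddMonoidHom.ext fun v => ?_ }, fun q => ?_, fun a ha b hb => ?_,
    fun a ha b hb => ?_, fun l v hv => ?_⟩
  · obtain ⟨r, rfl⟩ := QuotientGroup.mk_surjective (s := D.subgroupOf V) v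
    exact congrArg (fun x : V => Additive.ofMul (QuotientGroup.mk x : V ⧸ D.subgroupOf V))
      (Subtype.ext (by change 1 * (r : G) * 1⁻¹ = r; simp))
  · obtain ⟨r, rfl⟩ := QuotientGroup.mk_surjective (s := D.subgroupOf V) v
    exact congrArg (fun x : V => Additive.ofMul (QuotientGroup.mk x : V ⧸ D.subgroupOf V))
      (Subtype.ext (by
        change (a : G) * b * (r : G) * ((a : G) * b)⁻¹ = a * (b * r * (b : G)⁻¹) * (a : G)⁻¹; group))
  · obtain ⟨r, rfl⟩ := QuotientGroup.mk_surjective (s := D.subgroupOf V) q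
    exact ⟨r, r.2, dif_pos r.2⟩
  · simp only [dif_pos ha, dif_pos hb, dif_pos (V.mul_mem ha hb)]; rfl
  · simp only [dif_pos ha, dif_pos hb]
    exact QuotientGroup.eq
  · simp only [dif_pos hv, dif_pos (conj_mem_of_mem_normalizer (hL l.2) hv)]; rfl

variable {G : Type u} [Group G] [Finite G] {p : ℕ} [hp : Fact p.Prime] {V L A T : Subgroup G}

namespace Cfg

omit [Finite G] hp in
theorem inv_mul_mem (h : Cfg p V L A T) {l k v : G} (hl : l ∈ L) (hk : k ∈ L)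
    (h1 : v ∈ centralizer (cj l A : Set G)) (h2 : v ∈ centralizer (cj k A : Set G))
    (h3 : v ∉ centralizer (L : Set G)) : l⁻¹ * k ∈ normalizer (T : Set G) := by
  by_contra h4
  refine h3 ?_
  rw [← (h.conj hl).sup_eq (g := k * l⁻¹) (L.mul_mem hk (L.inv_mem hl)) (fun h5 => h4 (by
    rw [normalizer_cj, mem_cj] at h5
    simpa [mul_assoc] using h5)), centralizer_sup', ← cj_mul, inv_mul_cancel_right]
  exact ⟨h1, h2⟩

omit [Finite G] hp in
theorem inv_not_mem {g : G} (hn : g ∉ normalizer (T : Set G)) :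
    g⁻¹ ∉ normalizer (cj g T : Set G) := fun hc => hn (by
  rw [normalizer_cj, mem_cj] at hc
  simpa using inv_mem hc)

theorem le_sup (h : Cfg p V L A T) {g : G} (hg : g ∈ L) (hn : g ∉ normalizer (T : Set G)) :
    V ≤ cj g T ⊔ V ⊓ centralizer (A : Set G) := h.gen _ fun l hl => by
  have h' := h.conj hg
  have h3 := h.conj hl
  by_cases h1 : cj l T ≤ centralizer (A : Set G)
  · exact (le_inf h3.TV h1).trans le_sup_right
  obtain ⟨s, hs, h2⟩ := SetLike.not_le_iff_exists.1 h1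
  obtain ⟨u, hu, w, hw, rfl⟩ := h.exists_mul h' (h.sup_eq hg hn) (h3.TV hs)
  obtain ⟨a, ha, h5⟩ := h.exists_comm hg hn hw (fun h4 => h2 (mul_mem hu.2 (centralizer_le h.le h4))) hu
  have hag := L.mul_mem (h.le ha) hg
  have h6 : u * w ∈ centralizer (cj (a * g) A : Set G) := by
    have e : u * w = a * w * a⁻¹ * (⁅a, w⁆⁻¹ * u) := by
      rw [h.mul_comm (h.conj_mem (h.le ha) hw.1) h5.1, h.mul_comm (V.inv_mem
        (h.comm_mem (h.le ha) hw.1)) hu.1, h.mul_comm hu.1 hw.1, h.mul_comm hw.1 hu.1,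
        commutatorElement_def]
      group
    rw [e]
    refine mul_mem ?_ (centralizer_le (h.conj hag).le h5.2)
    rw [cj_mul, centralizer_cj, conj_mem_cj]
    exact hw.2
  have h7 := h.inv_mul_mem hag hl h6 (h3.fix hs) fun h4 => h2 (centralizer_le h.le h4)
  rw [← mul_inv_cancel_left (a * g) l, cj_mul, cj_eq_of_mem_normalizer h7, cj_mul,
    ← cj_eq_of_mem_normalizer (h.le_normalizer le_sup_right (sup_le h'.TV inf_le_left) ha)]
  exact cj_mono a le_sup_left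

theorem eq_sup (h : Cfg p V L A T) :
    V ⊓ centralizer (A : Set G) = T ⊔ V ⊓ centralizer (L : Set G) := by
  obtain ⟨g, hg, hn⟩ := SetLike.not_le_iff_exists.1 h.not_le
  refine le_antisymm (fun u hu => ?_)
    (sup_le (le_inf h.TV h.fix) (inf_le_inf_left _ (centralizer_le h.le)))
  have h1 := (h.conj hg).le_sup (L.inv_mem hg) (inv_not_mem hn) hu.1
  rw [cj_inv_cj] at h1
  obtain ⟨t, ht, w, hw, rfl⟩ := (mem_sup_of_le_normalizer (h.TV.trans (h.comm.trans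
    ((centralizer_le (inf_le_left : V ⊓ _ ≤ V)).trans (centralizer_le_normalizer _))))).1 h1
  refine mul_mem_sup ht ⟨hw.1, ?_⟩
  rw [← h.sup_eq hg hn, centralizer_sup']
  exact ⟨by simpa using mul_mem (inv_mem (h.fix ht)) hu.2, hw.2⟩

theorem cj_eq (h : Cfg p V L A T) {n : G} (hn : n ∈ L) (hT : n ∈ normalizer (T : Set G)) :
    V ⊓ centralizer (cj n A : Set G) = V ⊓ centralizer (A : Set G) := by
  rw [(h.conj hn).eq_sup, h.eq_sup, cj_eq_of_mem_normalizer hT]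

theorem exists_torus (hp2 : p ≠ 2) (h : Cfg p V L A T) : ∃ x ∈ normalizer (T : Set G),
    (∃ t ∈ T, x * t * x⁻¹ ≠ t) ∧ ∀ a ∈ T, ∀ b ∈ T, x * a * x⁻¹ ≠ a → x * b * x⁻¹ ≠ b →
      ∃ n : ℕ, x * (x ^ n * a * (x ^ n)⁻¹ * b⁻¹) * x⁻¹ = x ^ n * a * (x ^ n)⁻¹ * b⁻¹ := by
  obtain ⟨g, hg, hn⟩ := SetLike.not_le_iff_exists.1 h.not_le
  have h' := h.conj hg
  have e := h.sup_eq hg hn
  obtain ⟨Q, _, _, π, ρ, hs, hm, he, hρ⟩ := exists_mod (D := V ⊓ centralizer (L : Set G))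
    h.comm h.norm ((le_centralizer_iff.1 inf_le_right).trans (centralizer_le_normalizer _))
  have h1 : π 1 = 0 := by simpa using hm 1 V.one_mem 1 V.one_mem
  have h0 : ∀ v ∈ V, π v = 0 ↔ v ∈ centralizer (L : Set G) := fun v hv => by
    rw [eq_comm, ← h1, he 1 V.one_mem v hv, inv_one, one_mul]
    exact ⟨fun h => h.2, fun h => ⟨hv, h⟩⟩
  have hi : ∀ v ∈ V, π v⁻¹ = -π v := fun v hv =>
    eq_neg_of_add_eq_zero_left (by rw [← hm _ (V.inv_mem hv) _ hv, inv_mul_cancel, h1])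
  have hc : ∀ l : L, ∀ v ∈ V, ρ l (π v) - π v = π ⁅(l : G), v⁆ := fun l v hv => by
    rw [hρ l v hv, commutatorElement_def, hm _ (h.conj_mem l.2 hv) _ (V.inv_mem hv), hi v hv,
      sub_eq_add_neg]
  let I : Subgroup G → AddSubgroup Q := fun C =>
    { carrier := {q | ∃ u ∈ V ⊓ centralizer (C : Set G), π u = q}
      zero_mem' := ⟨1, one_mem _, h1⟩
      add_mem' := by
        rintro _ _ ⟨a, ha, rfl⟩ ⟨b, hb, rfl⟩
        exact ⟨a * b, mul_mem ha hb, hm a ha.1 b hb.1⟩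
      neg_mem' := by
        rintro _ ⟨a, ha, rfl⟩
        exact ⟨a⁻¹, inv_mem ha, hi a ha.1⟩ }
  have hI : ∀ C ≤ L, ∀ v ∈ V, π v ∈ I C → v ∈ centralizer (C : Set G) := by
    rintro C hC v hv ⟨u, hu, e⟩
    simpa using mul_mem hu.2 (centralizer_le hC ((he u hu.1 v hv).1 e).2)
  have f1 : ∀ {C T'}, Cfg p V L C T' → ∀ a ∈ C.subgroupOf L, ∀ x ∈ I C, ρ a x = x := by
    rintro C T' _ a ha _ ⟨u, hu, rfl⟩
    rw [hρ a u hu.1, hu.2 a ha, mul_inv_cancel_right]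
  have f2 : ∀ {C T'}, Cfg p V L C T' → ∀ a ∈ C.subgroupOf L, ∀ v, ρ a v - v ∈ I C := by
    intro C T' k a ha v
    obtain ⟨v, hv, rfl⟩ := hs v
    exact ⟨_, k.comm_mem_inf ha hv, (hc a v hv).symm⟩
  have f3 : ∀ {C T' g}, Cfg p V L C T' → g ∈ L → g ∉ normalizer (T' : Set G) →
      ∀ y ∈ I (cj g C), y ≠ 0 → ∀ x ∈ I C, ∃ a ∈ C.subgroupOf L, ρ a y - y = x := by
    rintro C T' g k hg hn _ ⟨w, hw, rfl⟩ h2 _ ⟨u, hu, rfl⟩
    obtain ⟨a, ha, h3⟩ := k.exists_comm hg hn hw (fun h => h2 ((h0 w hw.1).2 h)) hu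
    exact ⟨⟨a, k.le ha⟩, ha, (hc _ w hw.1).trans
      ((he _ (k.comm_mem (k.le ha) hw.1) u hu.1).2 h3)⟩
  have hcj : ∀ (l : L) (C : Subgroup G), ∀ v ∈ V ⊓ centralizer (C : Set G),
      l * v * (l : G)⁻¹ ∈ V ⊓ centralizer (cj (l : G) C : Set G) := fun l C v hv =>
    ⟨h.conj_mem l.2 hv.1, by rw [centralizer_cj]; exact conj_mem_cj.2 hv.2⟩
  have hcj' : ∀ (l : L) (C : Subgroup G), ∀ v ∈ V ⊓ centralizer (cj (l : G) C : Set G),
      ∃ u ∈ V ⊓ centralizer (C : Set G), l * u * (l : G)⁻¹ = v := fun l C v hv =>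
    ⟨_, by simpa only [coe_inv, cj_inv_cj] using hcj l⁻¹ _ v hv, by simp [mul_assoc]⟩
  have hcL : ∀ l ∈ L, ∀ w, l * w * l⁻¹ ∈ centralizer (L : Set G) → w ∈ centralizer (L : Set G) :=
    fun l hl w h6 => by rwa [← cj_eq_of_mem hl, centralizer_cj, conj_mem_cj] at h6
  obtain ⟨k, hk⟩ := h.pV.exists_card_dvd_pow
  obtain ⟨t, ht, htL⟩ := SetLike.not_le_iff_exists.1 fun hc : T ≤ centralizer (L : Set G) =>
    h.not_le ((le_centralizer_iff.1 hc).trans (centralizer_le_normalizer _))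
  have htA : t ∈ V ⊓ centralizer (A : Set G) := ⟨h.TV ht, h.fix ht⟩
  refine (exists_singer hp.out hp2 (k := k) (fun v => ?_) ρ (A := A.subgroupOf L)
    (B := (cj g A).subgroupOf L) (X := I A) (Y := I (cj g A)) ?_ (f1 h) (f2 h) (f1 h') (f2 h')
    (f3 h hg hn) (by simpa only [cj_inv_cj] using f3 h' (L.inv_mem hg) (inv_not_mem hn)) ?_
    ⟨t, htA, rfl⟩ (fun e => htL ((h0 t htA.1).1 e)) ⟨_, hcj ⟨g, hg⟩ A t htA, rfl⟩
    fun e => htL ?_).elim fun x ⟨x1, x2, x3⟩ => ?_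
  rotate_right
  · have hfix : ∀ a ∈ T, x * a * (x : G)⁻¹ ≠ a → π a ≠ 0 := fun a ha h2 h3 => h2 (by
      rw [(h0 a (h.TV ha)).1 h3 x x.2, mul_inv_cancel_right])
    refine ⟨x, h.uniq x x.2 fun _ hy' => ?_, ⟨t, ht, fun e => htL ((h0 t htA.1).1 (x2 _ ⟨t, htA, rfl⟩
      (by rw [hρ x t htA.1, e])))⟩, fun a ha b hb h2 h3 => ?_⟩
    · obtain ⟨y, hy, rfl⟩ := mem_cj'.1 hy'
      exact hI A h.le _ (h.conj_mem x.2 (h.TV hy))
        (hρ x y (h.TV hy) ▸ x1 _ ⟨y, ⟨h.TV hy, h.fix hy⟩, rfl⟩)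
    · obtain ⟨n, h4⟩ := x3 _ ⟨a, ⟨h.TV ha, h.fix ha⟩, rfl⟩ _ ⟨b, ⟨h.TV hb, h.fix hb⟩, rfl⟩
        (hfix a ha h2) (hfix b hb h3)
      have h5 := h.conj_mem (x ^ n).2 (h.TV ha)
      rw [hρ _ a (h.TV ha), ← sub_eq_zero, sub_eq_add_neg, ← hi b (h.TV hb),
        ← hm _ h5 _ (V.inv_mem (h.TV hb)), h0 _ (V.mul_mem h5 (V.inv_mem (h.TV hb)))] at h4
      exact ⟨n, mul_inv_eq_iff_eq_mul.2 (h4 x x.2)⟩
  · obtain ⟨v, hv, rfl⟩ := hs v
    have h2 : ∀ n : ℕ, π (v ^ n) = n • π v := fun n => by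
      induction n with
      | zero => simpa using h1
      | succ n ih => rw [pow_succ, hm _ (V.pow_mem hv n) v hv, ih, succ_nsmul]
    rw [← h2, orderOf_dvd_iff_pow_eq_one.1 ((V.orderOf_dvd_natCard hv).trans hk), h1]
  · rintro _ ⟨u, hu, rfl⟩ h2
    rw [h0 u hu.1, ← e, centralizer_sup']
    exact ⟨hu.2, hI _ h'.le u hu.1 h2⟩
  · rintro a - b - _ ⟨w, hw, rfl⟩ _ ⟨u, hu, rfl⟩ h2 h3
    have h4 := hcj a _ w hw
    have h5 := hcj b _ u hu
    rw [hρ a w hw.1, hρ b u hu.1] at h3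
    have hag := L.mul_mem a.2 hg
    have h6 := h.inv_mul_mem b.2 hag (hI _ (h.conj b.2).le _ h4.1 ⟨_, h5, h3.symm⟩)
      (by rw [cj_mul]; exact h4.2) fun h6 => h2 ((h0 w hw.1).2 (hcL _ a.2 w h6))
    have h7 : V ⊓ centralizer (cj (a : G) (cj g A) : Set G) =
        V ⊓ centralizer (cj (b : G) A : Set G) := by
      rw [← (h.conj b.2).cj_eq (n := a * g * (b : G)⁻¹) (L.mul_mem hag (L.inv_mem b.2)) (by
        rw [normalizer_cj, mem_cj]; simpa [mul_assoc] using h6), ← cj_mul, ← cj_mul,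
        inv_mul_cancel_right]
    constructor
    · rintro _ ⟨w', hw', rfl⟩
      obtain ⟨u', hu', e'⟩ := hcj' b A _ (h7 ▸ hcj a _ w' hw')
      exact ⟨_, ⟨u', hu', rfl⟩, by rw [hρ a w' hw'.1, hρ b u' hu'.1, e']⟩
    · rintro _ ⟨u', hu', rfl⟩
      obtain ⟨w', hw', e'⟩ := hcj' a _ _ (h7 ▸ hcj b A u' hu')
      exact ⟨_, ⟨w', hw', rfl⟩, by rw [hρ a w' hw'.1, hρ b u' hu'.1, e']⟩
  · exact hcL g hg t ((h0 _ (h.conj_mem hg htA.1)).1 e)

end Cfg

theorem exists_sing (hp2 : p ≠ 2) {S : Subgroup G} (hS : SylowIn p S ⊤)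
    (hTS : T ≤ centralizer (S : Set G)) (hT : T ≤ pCore p G)
    (hJ : normalizer (J S : Set G) ≤ normalizer (T : Set G)) (hn : ¬ T.Normal) :
    ∃ x : normalizer (T : Set G), Sing (normalizerMonoidHom T x) := by
  have hOS : pCore p G ≤ S :=
    hS.le_of_le_normalizer (Fit.isPGroup_pCore p G) le_top le_normalizer_of_normal
  obtain ⟨H, hSH, hH, hmin⟩ := exists_min_over S (N := normalizer (T : Set G))
    fun e => hn (normalizer_eq_top_iff.1 e)
  have hTH : T ≤ H := hT.trans (hOS.trans hSH)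
  have e2 := subgroupOf_normalizer_eq hTH
  obtain ⟨V, L, A, h⟩ := exists_cfg (T := T.subgroupOf H) (hS.mono hSH le_top).subgroupOf_top
    (fun t ht s hs => Subtype.ext (hTS ht s hs)) (fun t ht => Fit.pCore_subgroupOf_le H (hT ht))
    (fun x hx => by
      rw [J_subgroupOf hSH, ← subgroupOf_normalizer_eq ((J_le S).trans hSH)] at hx
      rw [← e2]
      exact hJ hx)
    (fun hn => hH fun x hx => by
      have : (⟨x, hx⟩ : H) ∈ normalizer (T.subgroupOf H : Set H) := by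
        rw [normalizer_eq_top]; trivial
      rwa [← e2] at this) (e2 ▸ hmin)
  obtain ⟨x, hx, ⟨t, ht, h1⟩, h2⟩ := h.exists_torus hp2
  rw [← e2] at hx
  refine ⟨⟨x, hx⟩, fun e => ?_, fun a b ha hb => ?_⟩
  · have h3 := congrArg Subtype.val (DFunLike.congr_fun e ⟨t, ht⟩)
    exact h1 (Subtype.ext h3)
  obtain ⟨n, h3⟩ := h2 ⟨a, hTH a.2⟩ a.2 ⟨b, hTH b.2⟩ b.2
    (fun e => ha (Subtype.ext (congrArg H.subtype e :)))
    fun e => hb (Subtype.ext (congrArg H.subtype e :))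
  refine ⟨n, Subtype.ext ?_⟩
  rw [← map_pow]
  exact (congrArg H.subtype h3 :)

omit hp in
open scoped Classical in
theorem Sing.trans_comm {T : Type*} [Group T] [Finite T] [IsMulCommutative T] (hT : IsPGroup p T)
    {α : MulAut T} (hα : Sing α) (hc : (Nat.card (zpowers α)).Coprime p) {a b : T}
    (ha : a ∈ closure {y : T | ∃ ψ ∈ zpowers α, ∃ t : T, y = ψ t * t⁻¹})
    (hb : b ∈ closure {y : T | ∃ ψ ∈ zpowers α, ∃ t : T, y = ψ t * t⁻¹}) (ha1 : a ≠ 1)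
    (hb1 : b ≠ 1) : ∃ ψ ∈ zpowers α, ψ a = b := by
  have := Fintype.ofFinite (zpowers α)
  let N : T →* T := ∏ x : zpowers α, (x : MulAut T).toMonoidHom
  have hN : ∀ t, N t = ∏ x : zpowers α, (x : MulAut T) t := fun t => MonoidHom.finsetProd_apply _ _ _
  have h1 : closure {y : T | ∃ ψ ∈ zpowers α, ∃ t : T, y = ψ t * t⁻¹} ≤ N.ker := by
    rw [closure_le]
    rintro _ ⟨ψ, hψ, t, rfl⟩
    rw [SetLike.mem_coe, MonoidHom.mem_ker, map_mul, map_inv, mul_inv_eq_one, hN, hN]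
    exact Fintype.prod_equiv (Equiv.mulRight (⟨ψ, hψ⟩ : zpowers α)) _ _ fun x => rfl
  have h2 : ∀ c ∈ closure {y : T | ∃ ψ ∈ zpowers α, ∃ t : T, y = ψ t * t⁻¹}, α c = c → c = 1 := by
    intro c hc' e
    have h3 : ∀ x : zpowers α, (x : MulAut T) c = c := fun x =>
      (zpowers_le_of_mem (H := MulAction.stabilizer (MulAut T) c) e) x.2
    have h4 : N c = 1 := h1 hc'
    simp only [hN, h3, Finset.prod_const, Finset.card_univ, ← Nat.card_eq_fintype_card] at h4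
    obtain ⟨k, hk⟩ := hT c
    have := pow_gcd_eq_one.2 ⟨h4, hk⟩
    rwa [hc.pow_right k, pow_one] at this
  obtain ⟨n, h3⟩ := hα.2 a b (fun e => ha1 (h2 a ha e)) fun e => hb1 (h2 b hb e)
  have hn := pow_mem (mem_zpowers α) n
  refine ⟨_, hn, mul_inv_eq_one.1 (h2 _ (mul_mem ?_ (inv_mem hb)) h3)⟩
  rw [← inv_mul_cancel_right ((α ^ n) a) a]
  exact mul_mem (subset_closure ⟨_, hn, a, rfl⟩) ha

end Cfsg.Agent.ZJ
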